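/-
Project G2R: a simple group has no standard subgroup `G₂(4)` whose centralizer has 2-rank one. Definitions.
-/
import Cfsg.Agent.L34.Defs
import Cfsg.Agent.SG2.F4
import Cfsg.Prelude.Def_ChevG2

set_option autoImplicit false
set_option linter.constructorNameAsVariable false

universe u v

namespace CL.G2R
open Subgroup CL.Grp CL.L34

/-- the field with four elements, with fast arithmetic; `.w` is a primitive cube root of unity and `.v` its square -/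
abbrev K4 : Type := CL.SG2.F4

/-- `x_a(s) x_b(r) x_{a+b}(v) x_{2a+b}(w) x_{3a+b}(p) x_{3a+2b}(c)` -/
@[ext] structure U6 where
  (s r v w p c : K4)
deriving DecidableEq

namespace U6

instance : Mul U6 := ⟨fun x y => ⟨x.s + y.s, x.r + y.r, x.v + y.s * x.r + y.v, x.w + y.s ^ 2 * x.r + y.w,
  x.p + y.s ^ 3 * x.r + y.s ^ 2 * x.v + y.s * x.w + y.p,
  x.c + y.s ^ 3 * x.r ^ 2 + y.s * x.v ^ 2 + y.s ^ 2 * x.r * x.v + y.c +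
    (x.p + y.s ^ 3 * x.r + y.s ^ 2 * x.v + y.s * x.w) * y.r + (x.w + y.s ^ 2 * x.r) * y.v⟩⟩
instance : One U6 := ⟨⟨0, 0, 0, 0, 0, 0⟩⟩
instance : Inv U6 := ⟨fun x => ⟨x.s, x.r, x.v + x.s * x.r, x.w + x.s ^ 2 * x.r,
  x.p + x.s ^ 3 * x.r + x.s ^ 2 * x.v + x.s * x.w,
  x.c + x.s ^ 3 * x.r ^ 2 + x.s * x.v ^ 2 + x.s ^ 2 * x.r * x.v + x.p * x.r + x.w * x.v⟩⟩

theorem mul_def (x y : U6) : x * y = ⟨x.s + y.s, x.r + y.r, x.v + y.s * x.r + y.v, x.w + y.s ^ 2 * x.r + y.w,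
  x.p + y.s ^ 3 * x.r + y.s ^ 2 * x.v + y.s * x.w + y.p,
  x.c + y.s ^ 3 * x.r ^ 2 + y.s * x.v ^ 2 + y.s ^ 2 * x.r * x.v + y.c +
    (x.p + y.s ^ 3 * x.r + y.s ^ 2 * x.v + y.s * x.w) * y.r + (x.w + y.s ^ 2 * x.r) * y.v⟩ := rfl
theorem one_def : (1 : U6) = ⟨0, 0, 0, 0, 0, 0⟩ := rfl
theorem inv_def (x : U6) : x⁻¹ = ⟨x.s, x.r, x.v + x.s * x.r, x.w + x.s ^ 2 * x.r,
  x.p + x.s ^ 3 * x.r + x.s ^ 2 * x.v + x.s * x.w,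
  x.c + x.s ^ 3 * x.r ^ 2 + x.s * x.v ^ 2 + x.s ^ 2 * x.r * x.v + x.p * x.r + x.w * x.v⟩ := rfl

instance : Group U6 := Group.ofLeftAxioms (fun x y z => by simp only [mul_def]; ext1 <;> grind)
  (fun x => by simp only [mul_def, one_def]; ext1 <;> grind)
  (fun x => by simp only [mul_def, one_def, inv_def]; ext1 <;> grind)

/-- coordinates -/
def equivProd : U6 ≃ K4 × K4 × K4 × K4 × K4 × K4 where
  toFun u := (u.s, u.r, u.v, u.w, u.p, u.c)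
  invFun x := ⟨x.1, x.2.1, x.2.2.1, x.2.2.2.1, x.2.2.2.2.1, x.2.2.2.2.2⟩
  left_inv _ := rfl
  right_inv _ := rfl

instance : Fintype U6 := Fintype.ofEquiv _ equivProd.symm

theorem card : Nat.card U6 = 4096 := by rw [Nat.card_congr equivProd]; simp [CL.SG2.F4.card]

end U6

/-- the root element of `a` -/
abbrev xa (s : K4) : U6 := ⟨s, 0, 0, 0, 0, 0⟩
/-- the root element of `b` -/
abbrev xb (r : K4) : U6 := ⟨0, r, 0, 0, 0, 0⟩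
/-- the root element of `a + b` -/
abbrev xA (v : K4) : U6 := ⟨0, 0, v, 0, 0, 0⟩
/-- the root element of `2a + b` -/
abbrev xB (w : K4) : U6 := ⟨0, 0, 0, w, 0, 0⟩
/-- the elements of `A = X_{3a+b} X_{3a+2b}` -/
abbrev xC (p c : K4) : U6 := ⟨0, 0, 0, 0, p, c⟩
/-- the root element of `3a + 2b` -/
abbrev xZ (c : K4) : U6 := ⟨0, 0, 0, 0, 0, c⟩

/-- the torus -/
def tor (l m : K4) (u : U6) : U6 :=
  ⟨l * u.s, m * u.r, l * m * u.v, l ^ 2 * m * u.w, l ^ 3 * m * u.p, l ^ 3 * m ^ 2 * u.c⟩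
/-- the field automorphism -/
def frob (u : U6) : U6 := ⟨u.s ^ 2, u.r ^ 2, u.v ^ 2, u.w ^ 2, u.p ^ 2, u.c ^ 2⟩

variable {G : Type u} [Group G]

/-- The model: `L = G₂(4)`, `κ.range` Sylow in `L`, `x = h_a(ω)`, `n = n_a`, `h = h_b(ω)`, `φ` the field automorphism. -/
structure Md (L : Subgroup G) (κ : U6 →* G) (x n h : G) (φ : G → G) : Prop where
  inj : Function.Injective κ
  mem : ∀ u, κ u ∈ L
  syl : IsSylowIn 2 κ.range L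
  cen : ∀ l ∈ L, l ∈ centralizer (L : Set G) → l = 1
  xL : x ∈ L
  x3 : x ^ 3 = 1
  ax : ∀ u, x * κ u * x⁻¹ = κ (tor .v 1 u)
  hL : h ∈ L
  h3 : h ^ 3 = 1
  ah : ∀ u, h * κ u * h⁻¹ = κ (tor .v .v u)
  nL : n ∈ L
  an : ∀ r v w p c, n * κ ⟨0, r, v, w, p, c⟩ * n⁻¹ = κ ⟨0, p, w, v, r, c + r * p + v * w⟩
  nx : n * x * n⁻¹ = x⁻¹
  na : n = κ (xa 1) * (n * κ (xa 1) * n⁻¹) * κ (xa 1)
  bz : ∀ g ∈ L, g * κ (xZ 1) = κ (xZ 1) * g →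
    ∃ (u u' : U6) (k : ℕ), g = κ u * x ^ k ∨ g = κ u * n * x ^ k * κ u'
  c3 : ∀ y ∈ L, y * κ (xZ 1) = κ (xZ 1) * y → y ^ 3 = 1 → y ≠ 1 →
    ∃ m ∈ L, m * κ (xZ 1) = κ (xZ 1) * m ∧ m * y * m⁻¹ = x
  cls : ∀ l ∈ L, l * l = 1 → l ≠ 1 → ∃ m ∈ L, m * l * m⁻¹ = κ (xZ 1) ∨ m * l * m⁻¹ = κ (xB 1)
  ncy : ∀ a ∈ L, ∀ b ∈ L, a * κ (xB 1) = κ (xB 1) * a → b * κ (xB 1) = κ (xB 1) * b → a * b * a⁻¹ * b⁻¹ ≠ κ (xB 1)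
  fk : ∀ u, φ (κ u) = κ (frob u)
  fx : φ x = x⁻¹
  ff : ∀ l ∈ L, φ (φ l) = l
  aut : ∀ g ∈ normalizer (L : Set G), ∃ l ∈ L, l * g ∈ centralizer (L : Set G) ∨ ∀ y ∈ L, l * g * y * (l * g)⁻¹ = φ y
  sl3 : ∃ M : Subgroup G, Group.IsPerfect M ∧ Odd (Nat.card (center M)) ∧
    Nonempty (M ⧸ center M ≃* Matrix.ProjectiveSpecialLinearGroup (Fin 3) K4) ∧ (∀ m ∈ M, m ∈ L ∧ m * x = x * m) ∧
    (∀ g ∈ L, g * x = x * g → ∃ m ∈ M, ∃ k : ℕ, g = m * x ^ k) ∧ ∀ r p c, κ ⟨0, r, 0, 0, p, c⟩ ∈ M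

/-- `f` acts on `L` as the field automorphism -/
def Fr (L : Subgroup G) (φ : G → G) (f : G) : Prop := ∀ y ∈ L, f * y * f⁻¹ = φ y

/-- `t` is an involution of `K = C(L)`, `S` is Sylow in `C(t)`. -/
structure Lc (L S : Subgroup G) (κ : U6 →* G) (t : G) (φ : G → G) : Prop where
  tK : t ∈ centralizer (L : Set G)
  tt : t * t = 1
  t1 : t ≠ 1
  cN : ∀ g : G, g * t = t * g → g ∈ normalizer (L : Set G)
  rk : ∀ k ∈ centralizer (L : Set G), k * k = 1 → k * t = t * k → k = 1 ∨ k = t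
  syl : IsSylowIn 2 S (centralizer {t})
  TS : ∀ u, κ u ∈ S
  tS : t ∈ S
  act : ∀ s ∈ S, ∃ u, κ u * s ∈ centralizer (L : Set G) ∨ Fr L φ (κ u * s)

/-- consequences of the model -/
structure Api (L : Subgroup G) (κ : U6 →* G) (x : G) : Prop where
  idx : ∀ a ∈ normalizer (L : Set G), ∀ b ∈ normalizer (L : Set G), (∃ l ∈ L, l * a ∈ centralizer (L : Set G)) ∨
    (∃ l ∈ L, l * b ∈ centralizer (L : Set G)) ∨ ∃ l ∈ L, l * (a * b) ∈ centralizer (L : Set G)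
  cV : ∀ g ∈ L, g * κ (xZ 1) = κ (xZ 1) * g → ∀ c, g * κ (xZ c) = κ (xZ c) * g
  inn : ∀ g ∈ normalizer (L : Set G), (∀ c, g * κ (xZ c) = κ (xZ c) * g) → ∃ l ∈ L, l * g ∈ centralizer (L : Set G)
  cA : ∀ g ∈ L, (∀ p c, g * κ (xC p c) = κ (xC p c) * g) → Two g → ∃ u : U6, u.r = 0 ∧ g = κ u
  cQ : ∀ g ∈ L, (∀ u : U6, u.s = 0 → g * κ u = κ u * g) → ∃ c, g = κ (xZ c)
  cQV : ∀ g ∈ L, g * κ (xZ 1) = κ (xZ 1) * g → (∀ u : U6, u.s = 0 → ∃ c, g * κ u * g⁻¹ = κ (u * xZ c)) →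
    ∃ u : U6, u.s = 0 ∧ g = κ u

/-- facts on the Sylow subgroup of `L` -/
structure UF : Prop where
  gen : ∀ D : Subgroup U6, (∀ s r, xa s * xb r * (xa s)⁻¹ ∈ D) → ∀ u : U6, u.s = 0 → u ∈ D
  f10 : ∀ X : Subgroup U6, 1024 ≤ Nat.card X → (∀ a ∈ X, ∀ b ∈ X, ∃ c, a * b * a⁻¹ * b⁻¹ = xZ c) →
    ∀ u, u ∈ X ↔ u.s = 0
  th : ∀ θ : U6 → U6, (∀ u, u.r = 0 → (θ u).r = 0 ∧ θ (θ u) = u ∧ θ (tor .v 1 u) = tor .v 1 (θ u)) →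
    (∀ u u', u.r = 0 → u'.r = 0 → θ (u * u') = θ u * θ u') → (∀ p c, θ (xC p c) = xC p c) → ∀ u, u.r = 0 → θ u = u

/-- the doubling of the Sylow subgroup of `C_L(x)` -/
structure Db (L : Subgroup G) (κ : U6 →* G) (t x : G) (ι : Heis F4 →* G) {ν : F4} (Φ : Heis (R16 ν) →* G) : Prop where
  inj : Function.Injective Φ
  ext : ∀ a b c, Φ ⟨⟨a, 0⟩, ⟨b, 0⟩, ⟨c, 0⟩⟩ = ι ⟨a, b, c⟩
  act : ∀ p, t * Φ p * t⁻¹ = Φ ⟨star p.a, star p.b, star p.c⟩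
  cx : ∀ p, Φ p * x = x * Φ p
  yA : ∀ g, g * x = x * g → CA ι g → Two g → (∃ a c, Tr ι t g ⟨a, 0, c⟩) → ∃ r u, g = Φ ⟨r, 0, u⟩ ∨ g = Φ ⟨r, 0, u⟩ * t
  yB : ∀ g, g * x = x * g → CA (ι.comp gr) g → Two g → (∃ a c, Tr ι t g ⟨0, a, c⟩) →
    ∃ r u, g = Φ ⟨0, r, u⟩ ∨ g = Φ ⟨0, r, u⟩ * t
  aA : ∀ g, (∃ a c, g = ι ⟨a, 0, c⟩) ↔ ∃ p c, g = κ (xC p c)
  aB : ∀ g, (∃ b c, g = ι ⟨0, b, c⟩) ↔ ∃ r c, g = κ ⟨0, r, 0, 0, 0, c⟩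
  aV : ∀ g, (∃ c, g = ι ⟨0, 0, c⟩) ↔ ∃ c, g = κ (xZ c)
  two : ∀ k ∈ centralizer (L : Set G), k * t = t * k → Two k → k = 1 ∨ k = t

/-- the normalizers of `Y_A` and `Y_B`; `C_T(A)` and the odd elements of `C_K(t)` centralize `Y_A` -/
structure Yc (L : Subgroup G) (κ : U6 →* G) (t x : G) {ν : F4} (Φ : Heis (R16 ν) →* G) : Prop where
  aa : ∀ g, g * t = t * g → (g * x * g⁻¹ = x ∨ g * x * g⁻¹ = x⁻¹) → (∀ p c, ∃ p' c', g * κ (xC p c) * g⁻¹ = κ (xC p' c')) →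
    ∀ r u, ∃ r' u', g * Φ ⟨r, 0, u⟩ * g⁻¹ = Φ ⟨r', 0, u'⟩
  ab : ∀ g, g * t = t * g → (g * x * g⁻¹ = x ∨ g * x * g⁻¹ = x⁻¹) →
    (∀ p c, ∃ r' c', g * κ (xC p c) * g⁻¹ = κ ⟨0, r', 0, 0, 0, c'⟩) →
    (∀ r u, ∃ r' u', g * Φ ⟨r, 0, u⟩ * g⁻¹ = Φ ⟨0, r', u'⟩) ∧ ∀ r u, ∃ r' u', Φ ⟨0, r, u⟩ = g * Φ ⟨r', 0, u'⟩ * g⁻¹
  cy : ∀ q : U6, q.r = 0 → ∀ r u, κ q * Φ ⟨r, 0, u⟩ = Φ ⟨r, 0, u⟩ * κ q
  co : ∀ k ∈ centralizer (L : Set G), k * t = t * k → Odd (orderOf k) → ∀ r u, k * Φ ⟨r, 0, u⟩ = Φ ⟨r, 0, u⟩ * k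

/-- commutators of the conjugates of `Y_A` -/
structure Cm (L : Subgroup G) (κ : U6 →* G) {ν : F4} (Φ : Heis (R16 ν) →* G) : Prop where
  cw : ∀ g ∈ L, g * κ (xZ 1) = κ (xZ 1) * g → ∀ u, g * Φ ⟨0, 0, u⟩ = Φ ⟨0, 0, u⟩ * g
  cm : ∀ g ∈ L, g * κ (xZ 1) = κ (xZ 1) * g → ∃ e, ∀ r u s u',
    Φ ⟨r, 0, u⟩ * (g * Φ ⟨s, 0, u'⟩ * g⁻¹) = g * Φ ⟨s, 0, u'⟩ * g⁻¹ * Φ ⟨r, 0, u⟩ * Φ ⟨0, 0, e * r * s⟩
  yb : ∃ g ∈ L, g * κ (xZ 1) = κ (xZ 1) * g ∧ ∃ e, ∀ b, ∃ u, Φ ⟨0, b, 0⟩ = g * Φ ⟨e * b, 0, u⟩ * g⁻¹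

/-- the group `Q` -/
def QQ (L : Subgroup G) (κ : U6 →* G) {ν : F4} (Φ : Heis (R16 ν) →* G) : Subgroup G :=
  closure {y | ∃ g ∈ L, g * κ (xZ 1) = κ (xZ 1) * g ∧ ∃ r u, y = g * Φ ⟨r, 0, u⟩ * g⁻¹}

/-- the structure of `Q`, first part -/
structure Qd {ν : F4} (Φ : Heis (R16 ν) →* G) (Q : Subgroup G) : Prop where
  mem : ∀ p, Φ p ∈ Q
  cen : ∀ q ∈ Q, ∀ u, q * Φ ⟨0, 0, u⟩ = Φ ⟨0, 0, u⟩ * q
  cm : ∀ q ∈ Q, ∀ q' ∈ Q, ∃ u, q * q' * q⁻¹ * q'⁻¹ = Φ ⟨0, 0, u⟩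
  sq : ∀ q ∈ Q, ∃ u, q * q = Φ ⟨0, 0, u⟩
  nw : ∀ g ∈ normalizer (Q : Set G), ∀ u, ∃ u', g * Φ ⟨0, 0, u⟩ * g⁻¹ = Φ ⟨0, 0, u'⟩
  semi : ∀ g ∈ normalizer (Q : Set G), ∀ r, ∃ r', ∀ u u', g * Φ ⟨0, 0, u⟩ * g⁻¹ = Φ ⟨0, 0, u'⟩ →
    g * Φ ⟨0, 0, r * u⟩ * g⁻¹ = Φ ⟨0, 0, r' * u'⟩

/-- the structure of `Q`, second part -/
structure Qe (L S : Subgroup G) (κ : U6 →* G) (t : G) {ν : F4} (Φ : Heis (R16 ν) →* G) (Q : Subgroup G) : Prop where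
  nS : S ≤ normalizer (Q : Set G)
  q1 : ∀ u : U6, u.s = 0 → κ u ∈ Q
  tau : ∀ u : U6, u.s = 0 → ∃ q ∈ Q, ∃ e, q * t * q⁻¹ = t * κ u * Φ ⟨0, 0, e⟩
  oc : ∀ k ∈ centralizer (L : Set G), k * t = t * k → ∀ q ∈ Q, Two (q * k) → k = 1 ∨ k = t
  big : ∀ g : G, g * t * g⁻¹ ∉ Q
  card : 2 ^ 20 ≤ Nat.card Q

/-- facts on `S` -/
structure Sa (S : Subgroup G) (κ : U6 →* G) (t : G) : Prop where
  card : Nat.card S ≤ 2 ^ 14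
  cV : ∀ s ∈ S, (∀ c, s * κ (xZ c) = κ (xZ c) * s) → ∃ u, s = κ u ∨ s = κ u * t
  sa : ∀ W ≤ S, (∀ e ∈ W, e * e = 1) → Nat.card W ≤ 16 → (∀ e ∈ W, ∀ u, κ u * e * (κ u)⁻¹ ∈ W) →
    ∀ e ∈ W, ∃ p c, e = κ (xC p c) ∨ e = κ (xC p c) * t

/-- semilinear maps -/
def Semi {R : Type} [CommRing R] (f : R →+ R) : Prop := ∀ r, ∃ r', ∀ u, f (r * u) = r' * f u

/-! ### The jobs -/

/-- MOD -/
def ModS : Prop := ∀ (G : Type u) [Group G] (L : Subgroup G) (F : Type v) [Field F] [Fintype F], Fintype.card F = 4 →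
  Nonempty (L ≃* Cfsg.Lie.chevG2.group F) → ∃ κ x n h φ, Md L κ x n h φ

/-- API -/
def ApiS : Prop := ∀ (G : Type u) [Group G] (L : Subgroup G) κ x n h φ, Md L κ x n h φ → Api L κ x

/-- F0: fusion -/
def F0S : Prop := ∀ (G : Type u) [Group G] [Finite G] (L S : Subgroup G) κ x n h φ t, Md L κ x n h φ → Api L κ x →
  Lc L S κ t φ → (∃ g : G, g * t * g⁻¹ ≠ t ∧ g * t * g⁻¹ * t = t * (g * t * g⁻¹)) →
  ∃ g : G, g * x = x * g ∧ g * t * g⁻¹ = t * κ (xZ 1)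

/-- HD: doubling in `C(x)` -/
def HdS : Prop := ∀ (G : Type u) [Group G] [Finite G] (L S : Subgroup G) κ x n h φ t, Md L κ x n h φ → Api L κ x →
  Lc L S κ t φ → (∃ g : G, g * x = x * g ∧ g * t * g⁻¹ = t * κ (xZ 1)) →
  ∃ (ι : Heis F4 →* G) (ν : F4) (Φ : Heis (R16 ν) →* G), Db L κ t x ι Φ

/-- YC -/
def YcS : Prop := UF → ∀ (G : Type u) [Group G] [Finite G] (L S : Subgroup G) κ x n h φ t ι (ν : F4)
  (Φ : Heis (R16 ν) →* G), Md L κ x n h φ → Api L κ x → Lc L S κ t φ → Db L κ t x ι Φ → Yc L κ t x Φ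

/-- CM -/
def CmS : Prop := ∀ (G : Type u) [Group G] [Finite G] (L S : Subgroup G) κ x n h φ t ι (ν : F4)
  (Φ : Heis (R16 ν) →* G), Md L κ x n h φ → Lc L S κ t φ → Db L κ t x ι Φ → Yc L κ t x Φ → Cm L κ Φ

/-- QD -/
def QdS : Prop := ∀ (G : Type u) [Group G] (L : Subgroup G) (κ : U6 →* G) (ν : F4) (Φ : Heis (R16 ν) →* G),
  Function.Injective Φ → Cm L κ Φ → Qd Φ (QQ L κ Φ)

/-- SA -/
def SaS : Prop := ∀ (G : Type u) [Group G] [Finite G] (L S : Subgroup G) κ x n h φ t, Md L κ x n h φ → Lc L S κ t φ →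
  (∀ k ∈ centralizer (L : Set G), k * t = t * k → Two k → k = 1 ∨ k = t) → Sa S κ t

/-- QE -/
def QeS : Prop := UF → ∀ (G : Type u) [Group G] [Finite G] (L S : Subgroup G) κ x n h φ t ι (ν : F4)
  (Φ : Heis (R16 ν) →* G), Md L κ x n h φ → Lc L S κ t φ → Db L κ t x ι Φ → Yc L κ t x Φ → Cm L κ Φ →
  Qd Φ (QQ L κ Φ) → Sa S κ t → Qe L S κ t Φ (QQ L κ Φ)

/-- ALG: four-groups of semilinear maps -/
def AlgS : Prop := ∀ (ν : F4) (f0 f1 f2 : R16 ν →+ R16 ν) (V : AddSubgroup (R16 ν)), Semi f0 → Semi f1 → Semi f2 →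
  (∀ u, f0 (f0 u) = u ∧ f1 (f1 u) = u ∧ f2 (f2 u) = u ∧ f1 (f2 u) = f2 (f1 u)) → Nat.card V = 4 →
  (∀ u ∈ V, f0 u = u ∧ f1 u = u ∧ f2 u = u) → (∀ e, f0 e = e → e ∉ V → f1 e ≠ e ∧ f2 e ≠ e ∧ f1 (f2 e) ≠ e) →
  ∀ e, f0 e = e → e ∈ V

/-- the fixed points of `t` on a conjugate of `Q` that is normalized by `S` -/
structure Fx (κ : U6 →* G) (t g : G) {ν : F4} (Φ : Heis (R16 ν) →* G) (Q : Subgroup G) : Prop where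
  w : ∀ y, ((∃ u, y = g * Φ ⟨0, 0, u⟩ * g⁻¹) ∧ y * t = t * y) ↔ ∃ c, y = κ (xZ c)
  q : ∀ y, (g⁻¹ * y * g ∈ Q ∧ y * t = t * y) ↔ ∃ u : U6, u.s = 0 ∧ y = κ u

/-- FX -/
def FxS : Prop := UF → AlgS → ∀ (G : Type u) [Group G] [Finite G] (L S Q : Subgroup G) κ x n h φ t ι (ν : F4)
  (Φ : Heis (R16 ν) →* G), Md L κ x n h φ → Lc L S κ t φ → Db L κ t x ι Φ → Qd Φ Q → Qe L S κ t Φ Q → Sa S κ t →
  ∀ g : G, (∀ s ∈ S, g⁻¹ * s * g ∈ normalizer (Q : Set G)) → Fx κ t g Φ Q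

/-- CAN -/
def CanS : Prop := ∀ (G : Type u) [Group G] [Finite G] (L S Q : Subgroup G) κ x n h φ t ι (ν : F4)
  (Φ : Heis (R16 ν) →* G), Md L κ x n h φ → Api L κ x → Lc L S κ t φ → Db L κ t x ι Φ → Qd Φ Q → Qe L S κ t Φ Q →
  ∀ g : G, g⁻¹ * t * g ∈ normalizer (Q : Set G) → Fx κ t g Φ Q → g ∈ normalizer (Q : Set G)

/-- FIN: transfer -/
def FinS : Prop := ∀ (G : Type u) [Group G] [Finite G] [IsSimpleGroup G], ¬ IsMulCommutative G →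
  ∀ (S Q : Subgroup G) (t : G) (ν : F4) (Φ : Heis (R16 ν) →* G), t * t = 1 → t ∈ S → IsPGroup 2 S → S ≤ centralizer {t} →
  Function.Injective Φ → (∀ u, t * Φ ⟨0, 0, u⟩ * t⁻¹ = Φ ⟨0, 0, star u⟩) → Qd Φ Q → S ≤ normalizer (Q : Set G) →
  (∀ g : G, (∀ s ∈ S, g⁻¹ * s * g ∈ normalizer (Q : Set G)) → g ∈ normalizer (Q : Set G)) → False

/-- the theorem -/
def Cyc : Prop := ∀ (G : Type u) [Group G] [Finite G] [IsSimpleGroup G], ¬ IsMulCommutative G →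
  ∀ L : Subgroup G, Cfsg.IsStandardSubgroup L → ∀ (F : Type v) [Field F] [Fintype F], Fintype.card F = 4 →
  Nonempty (L ≃* Cfsg.Lie.chevG2.group F) → Cfsg.PRankLE 2 1 (centralizer (L : Set G)) → False

/-! ### Small tools -/

theorem two_split {L : Subgroup G} (cen : ∀ l ∈ L, l ∈ centralizer (L : Set G) → l = 1) {l k : G} (hl : l ∈ L)
    (hk : k ∈ centralizer (L : Set G)) (h : Two (l * k)) : Two l ∧ Two k := by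
  obtain ⟨m, e⟩ := h
  rw [(show Commute l k from hk l hl).mul_pow] at e
  have e1 := cen _ (pow_mem hl (2 ^ m)) (eq_inv_of_mul_eq_one_left e ▸ inv_mem (pow_mem hk _))
  exact ⟨⟨m, e1⟩, m, by rwa [e1, one_mul] at e⟩

theorem sq_split {L : Subgroup G} (cen : ∀ l ∈ L, l ∈ centralizer (L : Set G) → l = 1) {l k : G} (hl : l ∈ L)
    (hk : k ∈ centralizer (L : Set G)) (e : l * k * (l * k) = 1) : l * l = 1 ∧ k * k = 1 := by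
  rw [← pow_two, (show Commute l k from hk l hl).mul_pow] at e
  have e1 := cen _ (pow_mem hl 2) (eq_inv_of_mul_eq_one_left e ▸ inv_mem (pow_mem hk _))
  exact ⟨by rw [← pow_two, e1], by rwa [e1, one_mul, pow_two] at e⟩

theorem star_add {ν : F4} (a b : F4) : star (⟨a, b⟩ : R16 ν) = ⟨a + b, b⟩ := by
  refine QuadraticAlgebra.ext ?_ ?_ <;> simp
  revert b; decide +kernel

end CL.G2R
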