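/-
Project G2R: the model in the Chevalley group of the Prelude.
-/
import Cfsg.Agent.G2R.Defs
import Cfsg.Agent.Known.MXG2d

set_option autoImplicit false
set_option linter.constructorNameAsVariable false

universe u v

namespace CL.G2R
open Subgroup CL.Grp CL.L34 CL.MX.G2 CL.Chev Cfsg.Lie

/-- the group `G₂(4)` -/
abbrev P4 : Type := chevG2.group K4

theorem q_mul (r v w p c r' v' w' p' c' : K4) :
    (xg 6 r * xg 8 v * xg 9 w * xg 10 p * xg 11 c : P4) * (xg 6 r' * xg 8 v' * xg 9 w' * xg 10 p' * xg 11 c') =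
      xg 6 (r + r') * xg 8 (v + v') * xg 9 (w + w') * xg 10 (p + p') * xg 11 (c + c' + p * r' + w * v') := by
  have R := rel (F := K4)
  have e1 : (xg 10 p * xg 6 r' : P4) = xg 6 r' * xg 10 p * xg 11 (p * r') := by rw [R.Cb]; congr 2; grind
  have e2 : (xg 9 w * xg 8 v' : P4) = xg 8 v' * xg 9 w * xg 11 (w * v') := by rw [R.BA]; congr 2; grind
  have z : ∀ c (g : P4), xg 11 c * (xg 6 r' * g) = xg 6 r' * (xg 11 c * g) := fun c g => ((R.bZ _ _).left_comm g).symm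
  simp only [R.b_add, R.A_add, R.B_add, R.C_add, R.Z_add, mul_assoc]
  rw [z, ← mul_assoc (xg 10 p) (xg 6 r'), e1]
  simp only [mul_assoc, ← (R.bB _ _).left_comm, ← (R.bA _ _).left_comm, ← (R.AZ _ _).left_comm, ← (R.AC _ _).left_comm]
  rw [← mul_assoc (xg 9 w) (xg 8 v'), e2]
  simp only [mul_assoc, ← (R.BZ _ _).left_comm, ← (R.BC _ _).left_comm, ← (R.CZ _ _).left_comm]
  simp only [← R.Z_add]
  congr 9
  ring

theorem q_a (t r v w p c : K4) : (xg 6 r * xg 8 v * xg 9 w * xg 10 p * xg 11 c : P4) * xg 7 t =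
    xg 7 t * (xg 6 r * xg 8 (v + t * r) * xg 9 (w + t ^ 2 * r) * xg 10 (p + t ^ 3 * r + t ^ 2 * v + t * w) *
      xg 11 (c + t ^ 3 * r ^ 2 + t * v ^ 2 + t ^ 2 * r * v)) := by
  have R := rel (F := K4)
  have z : ∀ k, k < 12 → (xg k 0 : P4) = 1 := fun k hk => by
    have := xg_add (F := K4) (r := k) hk 0 0
    rwa [add_zero, left_eq_mul] at this
  have e1 : (xg 6 r * xg 7 t : P4) = xg 7 t * (xg 6 r * xg 8 (t * r) * xg 9 (t ^ 2 * r) * xg 10 (t ^ 3 * r) *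
      xg 11 (t ^ 3 * r ^ 2)) := by rw [R.ba]; simp only [mul_assoc, CL.SG2.F4.neg_eq]
  have e2 : (xg 8 v * xg 7 t : P4) = xg 7 t * (xg 6 0 * xg 8 v * xg 9 0 * xg 10 (t ^ 2 * v) * xg 11 (t * v ^ 2)) := by
    rw [R.Aa, z 6 (by decide), show 2 * t * v = 0 by grind, show -(3 * t ^ 2 * v) = t ^ 2 * v by grind,
      show -(3 * t * v ^ 2) = t * v ^ 2 by grind]
    simp only [mul_assoc, one_mul]
  have e3 : (xg 9 w * xg 7 t : P4) = xg 7 t * (xg 6 0 * xg 8 0 * xg 9 w * xg 10 (t * w) * xg 11 0) := by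
    rw [R.Ba, z 6 (by decide), z 8 (by decide), z 11 (by decide), show -3 * t * w = t * w by grind]
    simp only [mul_assoc, one_mul, mul_one]
  have e4 : (xg 10 p * xg 11 c * xg 7 t : P4) = xg 7 t * (xg 6 0 * xg 8 0 * xg 9 0 * xg 10 p * xg 11 c) := by
    rw [z 6 (by decide), z 8 (by decide), z 9 (by decide), mul_assoc, ← (R.aZ _ _).eq, ← (R.aC _ _).left_comm]
    simp only [one_mul]
  calc _ = xg 6 r * (xg 8 v * (xg 9 w * (xg 10 p * xg 11 c * xg 7 t))) := by simp only [mul_assoc]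
    _ = _ := by
      rw [e4, ← mul_assoc (xg 9 w), e3, mul_assoc (xg 7 t), q_mul, ← mul_assoc (xg 8 v), e2, mul_assoc (xg 7 t), q_mul,
        ← mul_assoc (xg 6 r), e1, mul_assoc (xg 7 t), q_mul]
      have k : ∀ a b c d e a' b' c' d' e' : K4, a = a' → b = b' → c = c' → d = d' → e = e' →
          (xg 7 t * (xg 6 a * xg 8 b * xg 9 c * xg 10 d * xg 11 e) : P4) =
            xg 7 t * (xg 6 a' * xg 8 b' * xg 9 c' * xg 10 d' * xg 11 e') := by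
        rintro _ _ _ _ _ _ _ _ _ _ rfl rfl rfl rfl rfl; rfl
      apply k <;> clear k e1 e2 e3 e4 z R <;> grind

/-- the Sylow subgroup -/
noncomputable def κ0 : U6 →* P4 :=
  MonoidHom.mk' (fun u => xg 7 u.s * (xg 6 u.r * xg 8 u.v * xg 9 u.w * xg 10 u.p * xg 11 u.c)) fun a b => by
    rw [mul_assoc (xg 7 a.s), ← mul_assoc _ (xg 7 b.s), q_a, mul_assoc (xg 7 b.s), q_mul, ← mul_assoc (xg 7 a.s),
      ← (rel (F := K4)).a_add, U6.mul_def]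

theorem κ0_apply (u : U6) : κ0 u = xg 7 u.s * (xg 6 u.r * xg 8 u.v * xg 9 u.w * xg 10 u.p * xg 11 u.c) := rfl

theorem xg_zero {k : ℕ} (hk : k < 12) : (xg k 0 : P4) = 1 := by
  have := xg_add (F := K4) (r := k) hk 0 0
  rwa [add_zero, left_eq_mul] at this

theorem κ0_xa (s : K4) : κ0 (xa s) = xg 7 s := by simp [κ0_apply, xg_zero]
theorem κ0_xb (s : K4) : κ0 (xb s) = xg 6 s := by simp [κ0_apply, xg_zero]
theorem κ0_xA (s : K4) : κ0 (xA s) = xg 8 s := by simp [κ0_apply, xg_zero]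
theorem κ0_xB (s : K4) : κ0 (xB s) = xg 9 s := by simp [κ0_apply, xg_zero]
theorem κ0_xC (s : K4) : κ0 (xC s 0) = xg 10 s := by simp [κ0_apply, xg_zero]
theorem κ0_xZ (s : K4) : κ0 (xZ s) = xg 11 s := by simp [κ0_apply, xg_zero]

theorem tg_κ0 {l m : K4} (hl : l ≠ 0) (hm : m ≠ 0) (u : U6) : tg l m * κ0 u * (tg l m)⁻¹ = κ0 (tor l m u) := by
  have R := fun t => (rel (F := K4)).tor l hl m hm t
  rw [mul_inv_eq_iff_eq_mul, κ0_apply, κ0_apply]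
  simp only [← mul_assoc, (R _).1]
  simp only [mul_assoc, tor]
  congr 1
  simp only [← mul_assoc (tg l m), (R _).2.1, (R _).2.2.1, (R _).2.2.2.1, (R _).2.2.2.2.1, (R _).2.2.2.2.2, mul_assoc]

/-- `h_a(ω)` -/
noncomputable def x0 : P4 := tg .v 1
/-- `h_b(ω)` -/
noncomputable def h0 : P4 := tg .v .v
/-- `n_a` -/
noncomputable def n0 : P4 := (realG2.Sg K4).nS i0

theorem ax0 (u : U6) : x0 * κ0 u * x0⁻¹ = κ0 (tor .v 1 u) := tg_κ0 (by decide) (by decide) u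
theorem ah0 (u : U6) : h0 * κ0 u * h0⁻¹ = κ0 (tor .v .v u) := tg_κ0 (by decide) (by decide) u

theorem an0 (r v w p c : K4) : n0 * κ0 ⟨0, r, v, w, p, c⟩ * n0⁻¹ = κ0 ⟨0, p, w, v, r, c + r * p + v * w⟩ := by
  have R := rel (F := K4)
  have e : (⟨0, p, w, v, r, c + r * p + v * w⟩ : U6) = xC r 0 * xB v * xA w * xb p * xZ c := by
    simp only [U6.mul_def]; ext1 <;> grind
  rw [mul_inv_eq_iff_eq_mul, e, κ0_apply, xg_zero (by decide : 7 < 12), one_mul]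
  simp only [map_mul, κ0_xb, κ0_xA, κ0_xB, κ0_xC, κ0_xZ, n0, mul_assoc]
  simp only [← mul_assoc ((realG2.Sg K4).nS i0), R.na_b, R.na_A, R.na_B, R.na_C, R.na_Z, mul_assoc, one_mul,
    CL.SG2.F4.neg_eq]

/-- M1 -/
def M1S : Prop := Function.Injective κ0 ∧ IsSylowIn 2 κ0.range ⊤ ∧ x0 ^ 3 = 1 ∧ h0 ^ 3 = 1 ∧ n0 * x0 * n0⁻¹ = x0⁻¹ ∧
  n0 = κ0 (xa 1) * (n0 * κ0 (xa 1) * n0⁻¹) * κ0 (xa 1) ∧
  (∀ l : P4, l * l = 1 → l ≠ 1 → ∃ m, m * l * m⁻¹ = κ0 (xZ 1) ∨ m * l * m⁻¹ = κ0 (xB 1)) ∧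
  ∀ a b : P4, a * κ0 (xB 1) = κ0 (xB 1) * a → b * κ0 (xB 1) = κ0 (xB 1) * b → a * b * a⁻¹ * b⁻¹ ≠ κ0 (xB 1)

/-- M2 -/
def M2S : Prop := (∀ g : P4, g * κ0 (xZ 1) = κ0 (xZ 1) * g →
    ∃ (u u' : U6) (k : ℕ), g = κ0 u * x0 ^ k ∨ g = κ0 u * n0 * x0 ^ k * κ0 u') ∧
  ∀ y : P4, y * κ0 (xZ 1) = κ0 (xZ 1) * y → y ^ 3 = 1 → y ≠ 1 →
    ∃ m, m * κ0 (xZ 1) = κ0 (xZ 1) * m ∧ m * y * m⁻¹ = x0

/-- M3 -/
def M3S : Prop := ∃ M : Subgroup P4, Group.IsPerfect M ∧ Odd (Nat.card (center M)) ∧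
  Nonempty (M ⧸ center M ≃* Matrix.ProjectiveSpecialLinearGroup (Fin 3) K4) ∧ (∀ m ∈ M, m * x0 = x0 * m) ∧
  (∀ g, g * x0 = x0 * g → ∃ m ∈ M, ∃ k : ℕ, g = m * x0 ^ k) ∧ ∀ r p c, κ0 ⟨0, r, 0, 0, p, c⟩ ∈ M

/-- M4 -/
def M4S : Prop := ∃ φ : MulAut P4, (∀ u, φ (κ0 u) = κ0 (frob u)) ∧ φ x0 = x0⁻¹ ∧ (∀ l, φ (φ l) = l) ∧
  ∀ α : MulAut P4, ∃ l, (∀ y, l * α y * l⁻¹ = y) ∨ ∀ y, l * α y * l⁻¹ = φ y

/-- MT: transport -/
def MTS : Prop := M1S → M2S → M3S → M4S → ModS.{u, v}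

end CL.G2R
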