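/-
Project G2R: the Bruhat form of the centraliser of a long root element of `G₂(4)`; its elements of order three.
-/
import Cfsg.Agent.G2R.Mod0
import Cfsg.Agent.S2180
import Cfsg.Agent.Chev.SL2Pres
import Cfsg.Agent.Cls.SLnCard

set_option autoImplicit false
set_option linter.constructorNameAsVariable false

namespace CL.G2R
open Subgroup CL.Grp CL.L34 CL.MX.G2 CL.Chev Cfsg.Lie

theorem m2_simple : realG2.R.simple i0 = ⟨7, by decide⟩ := Fin.ext (by rw [tabG2.simple]; decide +kernel)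

theorem m2_neg : realG2.R.neg ⟨7, by decide⟩ = ⟨4, by decide⟩ := Fin.ext (by rw [tabG2.neg]; decide +kernel)

theorem m2_n (t : K4) : (realG2.Sg K4).n (realG2.R.simple i0) t = SL2.nn (xg 7) (xg 4) t := by
  rw [StSys.n, m2_simple, m2_neg, xg_eq, xg_eq]; rfl

theorem m2_h (t : K4) : (realG2.Sg K4).h (realG2.R.simple i0) t = SL2.hh (xg 7) (xg 4) t := by
  rw [StSys.h, m2_n, m2_n]; rfl

theorem m2_rel : SL2.Rel (K := K4) (xg 7) (xg 4) := ⟨xg_add (by decide), xg_add (by decide), fun t ht u => by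
  have := (realG2.Sg K4).conj_n (realG2.R.simple i0) (realG2.R.simple i0) ht u
  rw [realG2.R.refl_self, (realG2.Sg K4).η_self, realG2.R.pair_self, m2_n, m2_simple, m2_neg, xg_eq, xg_eq] at this
  refine this.trans ?_
  congr 1
  simp [zpow_neg, zpow_ofNat]⟩

theorem m2_n0 : n0 = SL2.nn (xg 7) (xg 4) (1 : K4) := m2_n 1

theorem m2_x0 : x0 = SL2.hh (xg 7) (xg 4) (.w : K4) := by
  rw [x0, tg, show (.v : K4) ^ 3 * 1 ^ 2 = 1 by decide, StSys.h_one, mul_one, m2_h,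
    show (.v : K4) ^ 2 * 1 = .w by decide]

theorem m2_x2 : x0 ^ 2 = SL2.hh (xg 7) (xg 4) (.v : K4) := by
  rw [pow_two, m2_x0, m2_rel.h_mul (by decide) (by decide)]; rfl

theorem m2_x3 : x0 ^ 3 = 1 := by
  rw [pow_succ, m2_x2, m2_x0, m2_rel.h_mul (by decide) (by decide)]; exact m2_rel.h_one

theorem m2_nn : n0⁻¹ = n0 := by rw [m2_n0, ← m2_rel.n_neg]; rfl

theorem m2_nx : n0 * x0 = x0 ^ 2 * n0 := by
  rw [m2_x2, m2_x0, m2_n0, m2_rel.n_one_mul_h (by decide), m2_rel.n_eq_h]; rfl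

theorem m2_nxk (k : ℕ) : x0 ^ k * n0 = n0 * x0 ^ (2 * k) := by
  have e : x0 * n0 = n0 * x0 ^ 2 := by
    rw [pow_two, ← mul_assoc, m2_nx, mul_assoc, m2_nx, ← mul_assoc, ← pow_add, show 2 + 2 = 3 + 1 from rfl, pow_add,
      m2_x3, one_mul, pow_one]
  rw [pow_mul]
  exact (SemiconjBy.pow_right (a := n0) (x := x0 ^ 2) (y := x0) e.symm k).symm

theorem m2_y (t : K4) : n0 * xg 7 t * n0⁻¹ = xg 4 t := by
  simpa [m2_n0] using m2_rel.conj 1 one_ne_zero t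

theorem m2_ya {t : K4} (ht : t ≠ 0) : ∃ (s : K4) (k : ℕ), xg 4 t = xg 7 s * x0 ^ k * n0 * xg 7 s := by
  have e := m2_rel.y_eq (s := t⁻¹)
  rw [inv_inv, CL.SG2.F4.neg_eq, CL.SG2.F4.neg_eq, m2_rel.n_eq_h, ← m2_n0, ← mul_assoc] at e
  refine ⟨t⁻¹, ?_⟩
  cases t
  · exact (ht rfl).elim
  · exact ⟨0, by rw [e, pow_zero]; exact congrArg (fun g => _ * g * n0 * _) m2_rel.h_one⟩
  · exact ⟨2, by rw [e, m2_x2]; rfl⟩
  · exact ⟨1, by rw [e, pow_one, m2_x0]; rfl⟩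

theorem m2_xu (k : ℕ) (u : U6) : ∃ u', x0 ^ k * κ0 u = κ0 u' * x0 ^ k := by
  induction k generalizing u with
  | zero => exact ⟨u, by simp⟩
  | succ k ih =>
    obtain ⟨u', e⟩ := ih (tor .v 1 u)
    exact ⟨u', by rw [pow_succ, mul_assoc, mul_inv_eq_iff_eq_mul.1 (ax0 u), ← mul_assoc, e, mul_assoc]⟩

theorem m2_split (u : U6) : ∃ q : U6, q.s = 0 ∧ u = xa u.s * q :=
  ⟨⟨0, u.r, u.v, u.w, u.p, u.c⟩, rfl, by simp only [U6.mul_def]; ext1 <;> simp⟩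

theorem m2_nq {q : U6} (h : q.s = 0) : ∃ q' : U6, q'.s = 0 ∧ n0 * κ0 q * n0⁻¹ = κ0 q' := by
  obtain ⟨s, r, v, w, p, c⟩ := q
  obtain rfl : s = 0 := h
  exact ⟨_, rfl, an0 r v w p c⟩

/-- the Bruhat form -/
def m2B (g : P4) : Prop := ∃ (u u' : U6) (k : ℕ), g = κ0 u * x0 ^ k ∨ g = κ0 u * n0 * x0 ^ k * κ0 u'

theorem m2B_l {g : P4} (h : m2B g) (u : U6) : m2B (κ0 u * g) := by
  obtain ⟨a, b, k, rfl | rfl⟩ := h
  · exact ⟨u * a, b, k, .inl (by rw [map_mul, mul_assoc])⟩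
  · exact ⟨u * a, b, k, .inr (by simp only [map_mul, mul_assoc])⟩

theorem m2B_u {g : P4} (h : m2B g) (u : U6) : m2B (g * κ0 u) := by
  obtain ⟨a, b, k, rfl | rfl⟩ := h
  · obtain ⟨u', e⟩ := m2_xu k u
    exact ⟨a * u', b, k, .inl (by rw [map_mul, mul_assoc, e, mul_assoc])⟩
  · exact ⟨a, b * u, k, .inr (by simp only [map_mul, mul_assoc])⟩

theorem m2B_x {g : P4} (h : m2B g) (j : ℕ) : m2B (g * x0 ^ j) := by
  obtain ⟨a, b, k, rfl | rfl⟩ := h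
  · exact ⟨a, b, k + j, .inl (by rw [pow_add, mul_assoc])⟩
  · obtain ⟨u', e⟩ := m2_xu (2 * j) b
    have e1 : x0 ^ j * x0 ^ (2 * j) = 1 := by rw [← pow_add, show j + 2 * j = 3 * j by ring, pow_mul, m2_x3, one_pow]
    have e2 : κ0 b * x0 ^ j = x0 ^ j * κ0 u' := by
      rw [← one_mul (κ0 b), ← e1, mul_assoc (x0 ^ j), e, mul_assoc, mul_assoc, ← pow_add, add_comm, pow_add, e1, mul_one]
    exact ⟨a, u', k + j, .inr (by rw [mul_assoc _ (κ0 b), e2, pow_add]; simp only [mul_assoc])⟩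

theorem m2B_n {g : P4} (h : m2B g) : m2B (g * n0) := by
  obtain ⟨a, b, k, rfl | rfl⟩ := h
  · exact ⟨a, 1, 2 * k, .inr (by rw [mul_assoc, m2_nxk, map_one, mul_one, mul_assoc])⟩
  obtain ⟨b', e1⟩ := m2_xu k b
  obtain ⟨q, h1, e2⟩ := m2_split b'
  obtain ⟨q', -, e3⟩ := m2_nq h1
  have e4 : κ0 a * n0 * x0 ^ k * κ0 b * n0 = κ0 a * (xg 4 b'.s * κ0 q' * x0 ^ (2 * k)) := by
    rw [← m2_y, ← e3, mul_assoc _ (x0 ^ k), e1, mul_assoc, mul_assoc, mul_assoc (κ0 b'), m2_nxk]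
    nth_rewrite 1 [e2]
    rw [map_mul, κ0_xa]
    nth_rewrite 2 [← m2_nn]
    group
  rw [e4]
  refine m2B_l (m2B_x (m2B_u ?_ _) _) _
  by_cases h0 : b'.s = 0
  · exact ⟨1, 1, 0, .inl (by simp [h0, xg_zero])⟩
  · obtain ⟨s, j, e⟩ := m2_ya h0
    exact ⟨xa s, xa s, 2 * j, .inr (by rw [e, κ0_xa, mul_assoc (xg 7 s), m2_nxk, ← mul_assoc])⟩

/-- the stabiliser of the Bruhat form -/
def m2T : Subgroup P4 where
  carrier := {g | ∀ b, m2B b ↔ m2B (b * g)}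
  mul_mem' h h' b := by rw [← mul_assoc, ← h', ← h]
  one_mem' b := by rw [mul_one]
  inv_mem' {g} h b := by rw [h (b * g⁻¹), inv_mul_cancel_right]

theorem m2T_u (u : U6) : κ0 u ∈ m2T := fun _ => ⟨fun h => m2B_u h u, fun h => by simpa using m2B_u h u⁻¹⟩

theorem m2T_n : n0 ∈ m2T := fun _ => ⟨m2B_n, fun h => by
  have := m2B_n h
  nth_rewrite 2 [← m2_nn] at this
  simpa using this⟩

theorem m2_first (g : P4) (hg : g * κ0 (xZ 1) = κ0 (xZ 1) * g) : m2B g := by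
  have h1 : g.1 ∈ chevG2.group K4 ⊓ centralizer {realG2.xN 11 (1 : K4)} :=
    ⟨g.2, mem_centralizer_singleton_iff.2 (by rw [κ0_xZ] at hg; exact congrArg Subtype.val hg)⟩
  rw [(Cfsg.Agent.S2180.result (F := K4) le_rfl _ _ (realG2.xN_val 11 1) (realG2.xN_val 9 1)).1] at h1
  have h2 : chevG2.posUnipotent K4 ⊔ chevG2.rootSubgroup K4 4 ≤ m2T.map (chevG2.group K4).subtype := by
    refine sup_le ((closure_le _).2 ?_) ((closure_le _).2 ?_)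
    · rintro a ⟨r, t, k1, k2⟩
      refine ⟨xg r t, ?_, Units.ext ((realG2.xN_val r t).trans k2.symm)⟩
      rcases (by decide +kernel : ∀ r < 12, chevG2.IsPosRoot r → r = 6 ∨ r = 7 ∨ r = 8 ∨ r = 9 ∨ r = 10 ∨ r = 11)
        r k1.1 k1 with rfl | rfl | rfl | rfl | rfl | rfl
      exacts [κ0_xb t ▸ m2T_u _, κ0_xa t ▸ m2T_u _, κ0_xA t ▸ m2T_u _, κ0_xB t ▸ m2T_u _, κ0_xC t ▸ m2T_u _,
        κ0_xZ t ▸ m2T_u _]
    · rintro a ⟨t, k2⟩
      exact ⟨xg 4 t, m2_y t ▸ mul_mem (mul_mem m2T_n (κ0_xa t ▸ m2T_u _)) (inv_mem m2T_n),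
        Units.ext ((realG2.xN_val 4 t).trans k2.symm)⟩
  obtain ⟨a, k1, k2⟩ := h2 h1
  obtain rfl : a = g := Subtype.ext k2
  simpa using (k1 1).1 ⟨1, 1, 0, .inl (by simp)⟩

/-- `Q₁` -/
def m2Q : Subgroup P4 where
  carrier := {g | ∃ q : U6, q.s = 0 ∧ g = κ0 q}
  mul_mem' := by
    rintro _ _ ⟨a, h, rfl⟩ ⟨b, h', rfl⟩
    exact ⟨a * b, by simp [U6.mul_def, h, h'], (map_mul _ _ _).symm⟩
  one_mem' := ⟨1, rfl, (map_one _).symm⟩
  inv_mem' := by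
    rintro _ ⟨a, h, rfl⟩
    exact ⟨a⁻¹, h, (map_inv _ _).symm⟩

theorem m2_card : Nat.card (centralizer {κ0 (xZ 1)}) ∣ 60 * 4096 := by
  obtain ⟨ψ, h1, h2⟩ := m2_rel.exists_hom_of_finite
  have a1 : ∀ u, κ0 u ∈ normalizer (m2Q : Set P4) := fun u => CL.Even.mem_norm_of_cj_le (by
    rintro _ ⟨_, ⟨q, k1, rfl⟩, rfl⟩
    exact ⟨u * q * u⁻¹, by simp [U6.mul_def, U6.inv_def, k1], by simp⟩)
  have a2 : n0 ∈ normalizer (m2Q : Set P4) := CL.Even.mem_norm_of_cj_le (by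
    rintro _ ⟨_, ⟨q, k1, rfl⟩, rfl⟩
    exact m2_nq k1)
  have a3 : ψ.range ≤ normalizer (m2Q : Set P4) := (SL2.range_le_iff ψ _).2 ⟨fun t => by rw [h1, ← κ0_xa]; exact a1 _,
    fun t => by rw [h2, ← m2_y, ← κ0_xa]; exact mul_mem (mul_mem a2 (a1 _)) (inv_mem a2)⟩
  have b1 : ∀ t, xg 7 t ∈ ψ.range := fun t => ⟨_, h1 t⟩
  have b2 : ∀ t, SL2.nn (xg 7) (xg 4) t ∈ ψ.range := fun t => mul_mem (mul_mem (b1 _) ⟨_, h2 _⟩) (b1 _)
  have b3 : n0 ∈ ψ.range ⊔ m2Q := mem_sup_left (m2_n0 ▸ b2 1)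
  have b4 : x0 ∈ ψ.range ⊔ m2Q := mem_sup_left (m2_x0 ▸ mul_mem (b2 _) (b2 _))
  have b5 : ∀ u, κ0 u ∈ ψ.range ⊔ m2Q := fun u => by
    obtain ⟨q, k1, e⟩ := m2_split u
    rw [e, map_mul, κ0_xa]
    exact mul_mem (mem_sup_left (b1 _)) (mem_sup_right ⟨q, k1, rfl⟩)
  have c1 : centralizer {κ0 (xZ 1)} ≤ ψ.range ⊔ m2Q := fun g hg => by
    obtain ⟨u, u', k, rfl | rfl⟩ := m2_first g (mem_centralizer_singleton_iff.1 hg)
    exacts [mul_mem (b5 _) (pow_mem b4 _), mul_mem (mul_mem (mul_mem (b5 _) b3) (pow_mem b4 _)) (b5 _)]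
  refine (card_dvd_of_le c1).trans ((card_sup_dvd a3).trans (Nat.mul_dvd_mul ?_ ?_))
  · have := card_range_dvd ψ
    rwa [CL.SLn.card_SL_two] at this
  · exact (card_dvd_of_le (show m2Q ≤ κ0.range from fun _ ⟨q, _, e⟩ => ⟨q, e.symm⟩)).trans
      (U6.card ▸ card_range_dvd κ0)

theorem m2_syl {y : P4} (h1 : y * κ0 (xZ 1) = κ0 (xZ 1) * y) (h2 : y ^ 3 = 1) (h3 : y ≠ 1) :
    IsSylowIn 3 (zpowers y) (centralizer {κ0 (xZ 1)}) := by
  have := Fact.mk Nat.prime_three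
  have a1 : Nat.card (zpowers y) = 3 := by rw [Nat.card_zpowers, orderOf_eq_prime h2 h3]
  have a2 : zpowers y ≤ centralizer {κ0 (xZ 1)} := zpowers_le.2 (mem_centralizer_singleton_iff.2 h1)
  refine ⟨a2, IsPGroup.of_card (n := 1) (by simpa using a1), fun h => ?_⟩
  have a3 := m2_card
  rw [← card_mul_relIndex a2, a1] at a3
  exact absurd ((Nat.mul_dvd_mul_left 3 h).trans a3) (by decide)

theorem m2S : M2S := by
  refine ⟨m2_first, fun y h1 h2 h3 => ?_⟩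
  have := Fact.mk Nat.prime_three
  have a1 : x0 * κ0 (xZ 1) = κ0 (xZ 1) * x0 := mul_inv_eq_iff_eq_mul.1 (ax0 _)
  have a2 : n0 * κ0 (xZ 1) = κ0 (xZ 1) * n0 := mul_inv_eq_iff_eq_mul.1 (by simpa using an0 0 0 0 0 1)
  have a3 : x0 ≠ 1 := fun e => by
    have e1 := ax0 (xa 1)
    rw [e, one_mul, inv_one, mul_one, show tor .v 1 (xa 1) = xa 1 * xa .w by decide +kernel, map_mul, left_eq_mul, κ0_xa,
      xg_lt (by decide), (realG2.full K4).faithful.x_eq_one_iff] at e1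
    exact absurd e1 (by decide)
  obtain ⟨m, b1, b2⟩ := (m2_syl h1 h2 h3).exists_conj_eq (m2_syl a1 m2_x3 a3)
  have b3 := mem_centralizer_singleton_iff.1 b1
  have b4 : m * y * m⁻¹ ∈ zpowers x0 := b2 ▸ conj_mem_conj_smul m (mem_zpowers y)
  obtain ⟨k, b5, b6⟩ : ∃ k < 3, x0 ^ k = m * y * m⁻¹ := by
    rw [mem_zpowers_iff_mem_range_orderOf, orderOf_eq_prime m2_x3 a3] at b4
    simpa using b4
  interval_cases k
  · exact (h3 (conj_eq_one_iff.1 (b6.symm.trans (pow_zero _)))).elim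
  · exact ⟨m, b3, by rw [← b6, pow_one]⟩
  · refine ⟨n0⁻¹ * m, ((show Commute n0 _ from a2).inv_left.mul_left b3).eq, ?_⟩
    rw [show n0⁻¹ * m * y * (n0⁻¹ * m)⁻¹ = n0⁻¹ * (m * y * m⁻¹ * n0) by group, ← b6, ← m2_nx, inv_mul_cancel_left]

end CL.G2R
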